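import Cfsg.Agent.Known.FiM
import Cfsg.Agent.Char.Burnside

/-! Set stabilisers in a transposition model (helper26): maximality (`St.coatom`), absence of elements of prime
order at least 5 (`NoP`, rules `fin`, `der`, `stage`), members of the derived series (`Lv`). -/

set_option autoImplicit false

namespace Cfsg.Agent.N3B

open Cfsg.Agent.Comp Cfsg.Agent.Known Subgroup Equiv
open Cfsg.Agent.Spor hiding allL appL appL_eq

variable {G : Type*} [Group G] {D : Set G} {φ : G →* Perm ℕ} {T y : ℕ → G} {c : Cf}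

/-- the stabiliser of a set of points. -/
def St (M : FM D φ T y c) (A : ℕ) : Subgroup G where
  carrier := {g | ∀ p < c.N, A.testBit (φ g p) = A.testBit p}
  one_mem' := fun p _ => by rw [map_one]; rfl
  mul_mem' := fun {a b} ha hb p hp => by rw [map_mul, Perm.mul_apply, ha _ (M.lt b p hp), hb p hp]
  inv_mem' := fun {a} ha p hp => by
    rw [← ha _ (M.lt a⁻¹ p hp), ← Perm.mul_apply, ← map_mul, mul_inv_cancel, map_one]; rfl

variable (M : FM D φ T y c)

theorem mem_St {A : ℕ} {g : G} : g ∈ St M A ↔ ∀ p < c.N, A.testBit (φ g p) = A.testBit p := Iff.rfl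

/-- a word stabilises a set. -/
noncomputable def stB (c : Cf) (A : ℕ) (w : List ℕ) : Bool := band (c.okW w) (Nat.beq (appW c.nets w A) A)

theorem ev_mem_St {A : ℕ} {w : List ℕ} (h : stB c A w = true) : ev y w ∈ St M A := fun p _ => by
  simp only [stB, band_eq, Bool.and_eq_true, nbeq] at h
  rw [M.net h.1]
  conv_lhs => rw [← h.2]
  exact appW_testBit M.rep.ok w A p

theorem land_mem {A B : ℕ} {g : G} (h : g ∈ St M A) (h' : g ∈ St M B) : g ∈ St M (Nat.land A B) := fun p hp => by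
  show (A &&& B).testBit _ = (A &&& B).testBit _
  rw [Nat.testBit_and, Nat.testBit_and, h p hp, h' p hp]

theorem sel_mem {A : ℕ} {g : G} (b : Bool) (h : g ∈ St M A) : g ∈ St M (c.sel b A) := fun p hp => by
  cases b
  · show (ivl 0 c.N ^^^ A).testBit _ = (ivl 0 c.N ^^^ A).testBit _
    rw [Nat.testBit_xor, Nat.testBit_xor, h p hp, ivl_testBit, ivl_testBit]
    simp [hp, M.lt g p hp]
  · exact h p hp

theorem ofL_mem {B : List ℕ} {g : G} (h : ∀ a ∈ B, φ g a = a) : g ∈ St M (Fischer.ofL B) := fun p _ => by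
  rw [Bool.eq_iff_iff, Fischer.ofL_testBit, Fischer.ofL_testBit]
  exact ⟨fun hp => (φ g).injective (h _ hp) ▸ hp, fun hp => (h p hp).symm ▸ hp⟩

/-- the points with a given commuting pattern. -/
noncomputable def pat (c : Cf) (ts : List (Bool × ℕ × List ℕ)) (A : ℕ) : ℕ :=
  List.rec (motive := fun _ => ℕ) A (fun t _ ih => seq (appW c.nets t.2.2 (Fischer.fixS c.nets c.N c.L [t.2.1]))
    fun X => Nat.land ih (c.sel t.1 X)) ts

theorem pat_mem {ts : List (Bool × ℕ × List ℕ)} {A : ℕ} {g : G} (h : g ∈ St M A)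
    (hf : ∀ t ∈ ts, φ g (c.nv t.2) = c.nv t.2) (hn : ∀ t ∈ ts, c.okW (t.2.1 :: t.2.2) = true) :
    g ∈ St M (pat c ts A) := by
  induction ts with
  | nil => exact h
  | cons t ts ih =>
    have e : pat c (t :: ts) A = Nat.land (pat c ts A) (c.sel t.1
      (appW c.nets t.2.2 (Fischer.fixS c.nets c.N c.L [t.2.1]))) :=
      seq_eq _ fun X => Nat.land (pat c ts A) (c.sel _ X)
    rw [e]
    refine land_mem M (ih (fun v hv => hf v (List.mem_cons_of_mem _ hv)) fun v hv => hn v (List.mem_cons_of_mem _ hv))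
      (sel_mem M _ fun p hp => ?_)
    rw [Bool.eq_iff_iff, M.fixT (hn t List.mem_cons_self) hp, M.fixT (hn t List.mem_cons_self) (M.lt g p hp)]
    exact (FM.fix_intw ((M.fix_iff g (M.nv_lt t.2)).1 (hf t List.mem_cons_self)) p).symm

/-! ### maximality -/

/-- data: generators of the stabiliser, a point of the set, orbit representatives outside. -/
structure Mx where
  ks : List (List ℕ)
  e : ℕ × List ℕ
  sE : List ℕ
  ds : List ((ℕ × List ℕ) × List ℕ)
  sD : List ℕ
  p : ℕ × List ℕ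
  j : ℕ

noncomputable def Mx.c1 (X : Mx) (c : Cf) (E : ℕ) : Bool :=
  band (band (allL X.ks (stB c E)) (stB c E (tw X.e)))
    (band (Fischer.subB E (c.cover X.ks X.sE (Nat.shiftLeft 1 (c.nv X.e))))
      (band (tb E (c.nv X.p)) (bif' (tb E (c.act X.j (c.nv X.p))) false true)))

noncomputable def Mx.c2 (X : Mx) (c : Cf) (E : ℕ) : Bool :=
  Fischer.subB (ivl 0 c.N) (Nat.lor E (c.cover X.ks X.sD (Fischer.ofL (X.ds.map fun d => c.nv d.1))))

noncomputable def Mx.c3 (X : Mx) (c : Cf) (d : (ℕ × List ℕ) × List ℕ) : Bool :=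
  band (c.okW (tw d.1)) (seq (c.cover (tw d.1 :: X.ks) d.2 (Nat.shiftLeft 1 (c.nv X.e))) fun O =>
    allLt c.nl fun j => tb O (c.pt j))

include M in
theorem T_mem_iff {K : Subgroup G} {g : G} (hg : g ∈ K) {p : ℕ} (hp : p < c.N) : T (φ g p) ∈ K ↔ T p ∈ K := by
  rw [M.conj g p hp, K.mul_mem_cancel_right (inv_mem hg), K.mul_mem_cancel_left hg]

theorem coatom (X : Mx) {E : ℕ} (h1 : X.c1 c E = true) (h2 : X.c2 c E = true) (h3 : ∀ d ∈ X.ds, X.c3 c d = true) :
    IsCoatom (St M E) := by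
  simp only [Mx.c1, band_eq, Bool.and_eq_true, allL_iff, tb_eq] at h1
  obtain ⟨⟨hk, he⟩, hE, e1, e2⟩ := h1
  have ok : ∀ q ∈ X.ks, c.okW q = true := fun q hq => by
    have := hk q hq
    simp only [stB, band_eq, Bool.and_eq_true] at this
    exact this.1
  have hle : genW y X.ks ≤ St M E := genW_le fun w hw => ev_mem_St M (hk w hw)
  have e0 : T (c.nv X.e) ∈ St M E := M.ev_tw _ ▸ ev_mem_St M he
  have hT : ∀ p < c.N, E.testBit p = true → T p ∈ St M E := fun p hp h => by
    obtain ⟨q, q1, q2⟩ := M.cover_spec ok _ _ _ (Fischer.subB_spec hE h)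
    rw [← T_mem_iff M (hle q1) hp, (Fischer.bit_testBit _ _).1 q2]; exact e0
  refine ⟨fun h => ?_, fun K hK => ?_⟩
  · have := (h ▸ mem_top (y X.j) : y X.j ∈ St M E) _ (M.nv_lt X.p)
    rw [M.hy _ _ (M.nv_lt _), e1] at this
    rw [this] at e2; cases e2
  · obtain ⟨g, hg, hn⟩ := SetLike.exists_of_lt hK
    obtain ⟨p, hp, h, hp'⟩ : ∃ p < c.N, T p ∈ K ∧ E.testBit p = false := by
      rw [mem_St] at hn
      push Not at hn
      obtain ⟨p, hp, hn⟩ := hn
      cases e : E.testBit p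
      · rw [e] at hn
        exact ⟨p, hp, (T_mem_iff M hg hp).1 (hK.le (hT _ (M.lt g p hp) (by simpa using hn))), e⟩
      · rw [e] at hn
        exact ⟨_, M.lt g p hp, (T_mem_iff M hg hp).2 (hK.le (hT _ hp e)), by simpa using hn⟩
    have := Fischer.subB_spec h2 (p := p) (by simp [ivl_testBit, hp])
    rw [Fischer.lor_testBit, hp'] at this
    obtain ⟨q, q1, q2⟩ := M.cover_spec ok _ _ _ (this.resolve_left (by simp))
    rw [Fischer.ofL_testBit, List.mem_map] at q2
    obtain ⟨d, hd, q2⟩ := q2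
    have hd' : T (c.nv d.1) ∈ K := by rw [q2, T_mem_iff M (hK.le (hle q1)) hp]; exact h
    have k := h3 d hd
    simp only [Mx.c3, band_eq, Bool.and_eq_true, seq_eq, allLt_iff, tb_eq] at k
    rw [eq_top_iff, ← M.rep.top]
    refine genL_le fun j hj => ?_
    obtain ⟨u, u1, u2⟩ := M.cover_spec (List.forall_mem_cons.2 ⟨k.1, ok⟩) _ _ _ (k.2 j (List.mem_range.1 hj))
    have hu : u ∈ K := genW_le (List.forall_mem_cons.2 ⟨M.ev_tw _ ▸ hd', fun w hw => hK.le (hle (mem_genW y hw))⟩) u1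
    rw [← M.Tpt, ← T_mem_iff M hu (M.pt_lt j), (Fischer.bit_testBit _ _).1 u2]
    exact hK.le e0

/-! ### elements of prime order -/

/-- no nontrivial element of order dividing `r` stabilises `E` and fixes `B`. -/
def NoP (E r : ℕ) (B : List ℕ) : Prop := ∀ g ∈ St M E, g ^ r = 1 → (∀ a ∈ B, φ g a = a) → g = 1

variable {E r : ℕ} {B : List ℕ}

theorem NoP.fin (h : allLt c.nl (fun j => memL (c.pt j) B) = true) : NoP M E r B := fun _ _ _ hf =>
  M.eq_one fun j hj => hf _ (memL_iff.1 (allLt_iff.1 h j hj))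

theorem NoP.der (nms : List (ℕ × List ℕ)) (ds : List (ℕ × ℕ × List ℕ))
    (h : band (allL nms fun nm => memL (c.nv nm) B) (allL ds fun d => band (band (Nat.blt d.2.1 c.N) (memL d.2.1 B))
      (Nat.beq (evP (c.sy (tws nms [])) d.2.2 d.2.1) d.1)) = true)
    (H : NoP M E r (appL (ds.map Prod.fst) B)) : NoP M E r B := fun g hg hr hf => by
  simp only [band_eq, Bool.and_eq_true, allL_iff, nblt, memL_iff, nbeq] at h
  refine H g hg hr fun a ha => ?_
  rw [appL_eq, List.mem_append, List.mem_map] at ha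
  rcases ha with ⟨d, hd, rfl⟩ | ha
  · obtain ⟨⟨d1, d2⟩, d3⟩ := h.2 d hd
    have k : φ (ev (fun i => ev y (nthL [] (tws nms []) i)) d.2.2) d.2.1 = evP (c.sy (tws nms [])) d.2.2 d.2.1 :=
      evP_spec M.lt (fun s i hi => M.app _ hi) _ _ d1
    conv_lhs => rw [← d3, ← k, ← Perm.mul_apply, ← map_mul, ev_intw (M.iw_tws iw_nil hf h.1), map_mul, Perm.mul_apply,
      hf _ d2, k, d3]
  · exact hf a ha

def incB (l : List ℕ) : ℕ → Bool :=
  List.rec (motive := fun _ => ℕ → Bool) (fun _ => true) (fun x _ ih a => band (Nat.ble a x) (ih (Nat.succ x))) l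

theorem incB_spec (l : List ℕ) : ∀ a, incB l a = true → (∀ x ∈ l, a ≤ x) ∧ l.Nodup := by
  induction l with
  | nil => simp
  | cons x l ih =>
    intro a h
    have e : incB (x :: l) a = band (Nat.ble a x) (incB l (x + 1)) := rfl
    rw [e, band_eq, Bool.and_eq_true, nble] at h
    obtain ⟨h1, h2⟩ := ih _ h.2
    exact ⟨List.forall_mem_cons.2 ⟨h.1, fun z hz => by have := h1 z hz; omega⟩,
      List.nodup_cons.2 ⟨fun hx => by have := h1 x hx; omega, h2⟩⟩

theorem exists_fix {σ : Perm ℕ} {r : ℕ} (hr : r.Prime) (hσ : σ ^ r = 1) {l : List ℕ} (hn : l.Nodup)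
    (hl : ¬ r ∣ l.length) (hi : ∀ a, σ a ∈ l ↔ a ∈ l) : ∃ a ∈ l, σ a = a := by
  classical
  have : Fact r.Prime := ⟨hr⟩
  have hi' : ∀ a, σ a ∈ l.toFinset ↔ a ∈ l.toFinset := by simpa using hi
  obtain ⟨a, ha⟩ := Perm.exists_fixed_point_of_prime (p := r) (n := 1) (α := {a // a ∈ l.toFinset})
    (by rw [Fintype.card_coe, List.toFinset_card_of_nodup hn]; exact hl) (σ := σ.subtypePerm hi')
    (by rw [pow_one, Perm.subtypePerm_pow]; ext a; simp [hσ])
  exact ⟨a, List.mem_toFinset.1 a.2, congrArg Subtype.val ha⟩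

/-- one stage. -/
structure Sg where
  u : Bool
  ts : List (Bool × ℕ × List ℕ)
  S : List ℕ
  qs : List (List ℕ)
  sq : List ℕ
  bs : List ℕ

noncomputable def Sg.chk (X : Sg) (c : Cf) (E : ℕ) (B : List ℕ) : Bool :=
  band (band (band (allL X.ts fun t => band (c.okW (t.2.1 :: t.2.2)) (memL (c.nv t.2) B))
      (Nat.beq (Nat.land (pat c X.ts (c.sel X.u E)) (c.sel false (Fischer.ofL B))) (Fischer.ofL X.S)))
    (band (band (incB X.S 0) (allL X.S fun a => Nat.blt a c.N)) (Nat.beq (Nat.mod 60466176 (lenL X.S)) 0)))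
    (band (band (allL B fun a => Nat.blt a c.N)
      (allL X.qs fun q => band (stB c E q) (allL B fun a => Nat.beq (evP c.act q a) a)))
      (Fischer.subB (Fischer.ofL X.S) (c.cover X.qs X.sq (Fischer.ofL X.bs))))

theorem NoP.stage (hr : r.Prime) (h5 : 5 ≤ r) (X : Sg) (h : X.chk c E B = true)
    (H : ∀ b ∈ X.bs, NoP M E r (b :: B)) : NoP M E r B := fun g hg hp hf => by
  simp only [Sg.chk, band_eq, Bool.and_eq_true, allL_iff, nblt, memL_iff, nbeq, lenL_eq] at h
  obtain ⟨⟨⟨h1, h2⟩, ⟨h3, h4⟩, h6⟩, ⟨h7, h8⟩, h9⟩ := h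
  have hS : g ∈ St M (Fischer.ofL X.S) := h2 ▸ land_mem M (pat_mem M (sel_mem M _ hg) (fun t ht => hf _ (h1 t ht).2)
    fun t ht => (h1 t ht).1) (sel_mem M _ (ofL_mem M hf))
  obtain ⟨s, hs, e⟩ := exists_fix (σ := φ g) hr (by rw [← map_pow, hp, map_one]) (incB_spec _ _ h3).2
    (fun hd => by
      have h1 := hr.dvd_of_dvd_pow (show r ∣ 6 ^ 10 from hd.trans (Nat.dvd_of_mod_eq_zero h6))
      have h2 := Nat.le_of_dvd (by norm_num) h1
      interval_cases r
      · norm_num at h1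
      · norm_num at hr)
    (fun a => by
      by_cases ha : a < c.N
      · rw [← Fischer.ofL_testBit, ← Fischer.ofL_testBit, hS a ha]
      · refine ⟨fun h => absurd ?_ ha, fun h => absurd (h4 a h) ha⟩
        have := M.lt g⁻¹ _ (h4 _ h)
        rwa [← Perm.mul_apply, ← map_mul, inv_mul_cancel, map_one] at this)
  obtain ⟨q, q1, q2⟩ := M.cover_spec (fun q hq => by
    have := (h8 q hq).1
    simp only [stB, band_eq, Bool.and_eq_true] at this
    exact this.1) _ _ _ (Fischer.subB_spec h9 ((Fischer.ofL_testBit _ _).2 hs))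
  have q3 : q ∈ St M E := genW_le (fun w hw => ev_mem_St M (h8 w hw).1) q1
  have q4 : ∀ a ∈ B, φ q⁻¹ a = a := fun a ha => by
    have : genW y X.qs ≤ (MulAction.stabilizer (Perm ℕ) a).comap φ := genW_le fun w hw =>
      (M.app w (h7 a ha)).trans ((h8 w hw).2 a ha)
    exact this (inv_mem q1)
  have := H _ ((Fischer.ofL_testBit _ _).1 q2) (q * g * q⁻¹) (mul_mem (mul_mem q3 hg) (inv_mem q3))
    (by rw [conj_pow, hp]; simp) (List.forall_mem_cons.2 ⟨by simp [e], fun a ha => by
      rw [map_mul, map_mul, Perm.mul_apply, Perm.mul_apply, q4 a ha, hf a ha]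
      conv_lhs => rw [← q4 a ha]
      simp⟩)
  simpa using this

theorem solvable (H : ∀ r, r.Prime → 5 ≤ r → NoP M E r []) : Group.IsSolvable (St M E) := by
  have := M.finite
  refine Char.isSolvable_of_two_primes (p := 2) (q := 3) fun r hr hd => ?_
  by_contra hn
  have h5 : 5 ≤ r := by
    have := hr.two_le
    by_contra h
    interval_cases r <;> simp_all (config := {decide := true})
  have : Fact r.Prime := ⟨hr⟩
  obtain ⟨g, hg⟩ := exists_prime_orderOf_dvd_card' r hd
  have := H r hr h5 g g.2 (by rw [← hg, ← coe_pow, pow_orderOf_eq_one]; rfl) (by simp)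
  rw [show g = 1 from Subtype.ext this, orderOf_one] at hg
  omega

/-! ### the derived series -/

/-- the word lies in the `k`-th derived subgroup. -/
def Lv (y : ℕ → G) (H : Subgroup G) (k : ℕ) (w : List ℕ) : Prop := ev y w ∈ (derivedSeries H k).map H.subtype

theorem Lv.zero {H : Subgroup G} {w : List ℕ} (h : ev y w ∈ H) : Lv y H 0 w := ⟨⟨_, h⟩, mem_top _, rfl⟩

include M in
theorem Lv.succ {H : Subgroup G} {k : ℕ} {a b : List ℕ} (ha : Lv y H k a) (hb : Lv y H k b) (w : List ℕ)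
    (h : c.eqP (appL a (appL b w)) (appL b a) = true) : Lv y H (k + 1) w := by
  obtain ⟨A, hA, e1⟩ := ha
  obtain ⟨B, hB, e2⟩ := hb
  have := M.eq h
  rw [ev_appL, ev_appL, ev_appL, ← e1, ← e2] at this
  refine ⟨_, commutator_mem_commutator hA hB, ?_⟩
  rw [map_commutatorElement, commutatorElement_def, ← this]; group

theorem series_ne {H : Subgroup G} (hs : Group.IsSolvable H) {k : ℕ} {w : List ℕ} (h : Lv y H k w) (hw : ev y w ≠ 1) :
    derivedSeries H (k + 1) ≠ derivedSeries H k := fun e => by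
  have k1 : ∀ n, derivedSeries H (k + n) = derivedSeries H k := fun n => by
    induction n with
    | zero => rfl
    | succ n ih => rw [← add_assoc, derivedSeries_succ, ih, ← derivedSeries_succ, e]
  obtain ⟨n, hn⟩ := hs.solvable
  have : derivedSeries H k = ⊥ := by
    rw [← k1 n, eq_bot_iff, ← hn]; exact derivedSeries_antitone H (by omega)
  obtain ⟨A, hA, e1⟩ := h
  rw [this, SetLike.mem_coe, mem_bot] at hA
  exact hw (by rw [← e1, hA, map_one])

include M in
theorem ne_one {w : List ℕ} (j : ℕ) (h : Nat.beq (evP c.act w (c.pt j)) (c.pt j) = false) : ev y w ≠ 1 := fun e => by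
  rw [← M.app w (M.pt_lt j), e, map_one, nbeq_false] at h
  exact h rfl

end Cfsg.Agent.N3B
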